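import Cfsg.Agent.H734.Prism.Lem

/-!
# Degree graphs of solvable groups: the configurations (helper734)
-/

set_option autoImplicit false
set_option linter.unusedSectionVars false
set_option linter.style.haveILetI false

namespace Cfsg.Agent.H734.Prism

open Subgroup Cfsg.Agent.H670.Palfy

local notation "PSub" => Cfsg.Agent.H670.Palfy.Sub

universe u v w

/-! ### Prime factors -/

theorem card_le_two {c a b : ℕ} (h : ∀ x : ℕ, x.Prime → x ∣ c → x = a ∨ x = b) :
    c.primeFactors.card ≤ 2 := by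
  classical
  refine (Finset.card_le_card (t := {a, b}) ?_).trans Finset.card_le_two
  intro x hx
  rw [Finset.mem_insert, Finset.mem_singleton]
  exact h x (Nat.prime_of_mem_primeFactors hx) (Nat.dvd_of_mem_primeFactors hx)

theorem card_le_three {c a b d : ℕ} (h : ∀ x : ℕ, x.Prime → x ∣ c → x = a ∨ x = b ∨ x = d) :
    c.primeFactors.card ≤ 3 := by
  classical
  refine (Finset.card_le_card (t := {a, b, d}) ?_).trans Finset.card_le_three
  intro x hx
  rw [Finset.mem_insert, Finset.mem_insert, Finset.mem_singleton]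
  exact h x (Nat.prime_of_mem_primeFactors hx) (Nat.dvd_of_mem_primeFactors hx)

/-! ### Consequences of `SLD.uf` -/

section

variable {H : Type u} {V : Type v} [Group H] [AddCommGroup V] [DistribMulAction H V] [Finite H]
  [Finite V]

theorem relIndex_ne_zero (A B : Subgroup H) : A.relIndex B ≠ 0 :=
  Subgroup.index_ne_zero_of_finite (H := A.subgroupOf B)

theorem uf_card {C : Subgroup H} {p n : ℕ} (hp : p.Prime) (hn : 0 < n) (h : SLD H V C p n) {z : ℕ}
    [hz : Fact z.Prime] (hu : UF z H (⊥ : AddSubgroup V)) (Z : Sylow z H)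
    (hZ : ¬ Triv V (Z : Subgroup H)) :
    z ∣ C.index ∧ ¬ z ∣ (Ker H V).relIndex C ∧ Nat.card (Sylow z H) ∣ (Ker H V).relIndex C ∧
    ∃ k m : ℕ, 0 < k ∧ n = m * z ^ k ∧ (p ^ n - 1) / (p ^ m - 1) = Nat.card (Sylow z H) ∧
      (p ^ n - 1) / (p ^ m - 1) ≡ 1 [MOD z] := by
  obtain ⟨h1, h2, k, m, hk, hnm, hm, hmod, hdvd⟩ := h.uf z hz.out hu Z hZ
  have h3 := hu.card_mul Z
  rw [h.card, hm] at h3
  have hm0 : 0 < m := by
    rcases Nat.eq_zero_or_pos m with h0 | h0
    · rw [h0, Nat.zero_mul] at hnm; omega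
    · exact h0
  have h4 : 1 < p ^ m := Nat.one_lt_pow hm0.ne' hp.one_lt
  have h5 : (p ^ n - 1) / (p ^ m - 1) = Nat.card (Sylow z H) := by
    rw [h3]; exact Nat.mul_div_cancel _ (by omega)
  exact ⟨h1, h2, h5 ▸ hdvd, k, m, hk, hnm, h5, hmod⟩

theorem num_card (hN : FactNum) {C : Subgroup H} {p n : ℕ} (hp : p.Prime) (hn : 0 < n)
    (h : SLD H V C p n) {a b : ℕ} [ha : Fact a.Prime] [hb : Fact b.Prime] (hab : a ≠ b)
    (hua : UF a H (⊥ : AddSubgroup V)) (A : Sylow a H) (hA : ¬ Triv V (A : Subgroup H))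
    (hub : UF b H (⊥ : AddSubgroup V)) (B : Sylow b H) (hB : ¬ Triv V (B : Subgroup H))
    (W : Finset ℕ) (haW : a ∈ W) (hbW : b ∈ W) (hW : ∀ w ∈ W, w.Prime ∧ w ∣ n) :
    W.card + 1 ≤ (Nat.card (Sylow a H) * Nat.card (Sylow b H)).primeFactors.card := by
  classical
  obtain ⟨-, -, -, ka, ma, hka, hna, hca, hmoda⟩ := uf_card hp hn h hua A hA
  obtain ⟨-, -, -, kb, mb, hkb, hnb, hcb, hmodb⟩ := uf_card hp hn h hub B hB
  have h1 := hN p n {a, b} W (fun z => if z = a then ma else mb) (fun z => if z = a then ka else kb)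
    hp hn (by
      intro x hx
      rw [Finset.mem_insert, Finset.mem_singleton] at hx
      rcases hx with rfl | rfl
      · exact haW
      · exact hbW) (by rw [Finset.card_pair hab]) hW (by
      intro z hz
      rw [Finset.mem_insert, Finset.mem_singleton] at hz
      rcases hz with rfl | rfl
      · rw [if_pos rfl, if_pos rfl]
        exact ⟨hka, hna, hmoda⟩
      · rw [if_neg hab.symm, if_neg hab.symm]
        exact ⟨hkb, hnb, hmodb⟩)
  rw [Finset.prod_pair hab, if_pos rfl, if_neg hab.symm, hca, hcb] at h1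
  exact h1

theorem num_dvd (hN : FactNum) {C : Subgroup H} {p n : ℕ} (hp : p.Prime) (hn : 0 < n)
    (h : SLD H V C p n) {a b : ℕ} [ha : Fact a.Prime] [hb : Fact b.Prime] (hab : a ≠ b)
    (hua : UF a H (⊥ : AddSubgroup V)) (A : Sylow a H) (hA : ¬ Triv V (A : Subgroup H))
    (hub : UF b H (⊥ : AddSubgroup V)) (B : Sylow b H) (hB : ¬ Triv V (B : Subgroup H))
    (W : Finset ℕ) (haW : a ∈ W) (hbW : b ∈ W) (hW : ∀ w ∈ W, w.Prime ∧ w ∣ n) :
    W.card + 1 ≤ ((Ker H V).relIndex C).primeFactors.card := by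
  classical
  refine (num_card hN hp hn h hab hua A hA hub B hB W haW hbW hW).trans
    (Finset.card_le_card ?_)
  obtain ⟨-, -, h1, -⟩ := uf_card hp hn h hua A hA
  obtain ⟨-, -, h2, -⟩ := uf_card hp hn h hub B hB
  rw [Nat.primeFactors_mul Nat.card_pos.ne' Nat.card_pos.ne']
  exact Finset.union_subset (Nat.primeFactors_mono h1 (relIndex_ne_zero _ _))
    (Nat.primeFactors_mono h2 (relIndex_ne_zero _ _))

/-- The case `W = {a, b}`. -/
theorem three_le (hN : FactNum) {C : Subgroup H} {p n : ℕ} (hp : p.Prime) (hn : 0 < n)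
    (h : SLD H V C p n) {a b : ℕ} [ha : Fact a.Prime] [hb : Fact b.Prime] (hab : a ≠ b)
    (hua : UF a H (⊥ : AddSubgroup V)) (A : Sylow a H) (hA : ¬ Triv V (A : Subgroup H))
    (hub : UF b H (⊥ : AddSubgroup V)) (B : Sylow b H) (hB : ¬ Triv V (B : Subgroup H)) :
    3 ≤ (Nat.card (Sylow a H) * Nat.card (Sylow b H)).primeFactors.card := by
  classical
  have h1 := num_card hN hp hn h hab hua A hA hub B hB {a, b} (by simp) (by simp) (by
    intro w hw
    rw [Finset.mem_insert, Finset.mem_singleton] at hw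
    rcases hw with rfl | rfl
    · exact ⟨ha.out, (uf_card hp hn h hua A hA).1.trans h.dvd⟩
    · exact ⟨hb.out, (uf_card hp hn h hub B hB).1.trans h.dvd⟩)
  rwa [Finset.card_pair hab] at h1

theorem three_le' (hN : FactNum) {C : Subgroup H} {p n : ℕ} (hp : p.Prime) (hn : 0 < n)
    (h : SLD H V C p n) {a b : ℕ} [ha : Fact a.Prime] [hb : Fact b.Prime] (hab : a ≠ b)
    (hua : UF a H (⊥ : AddSubgroup V)) (A : Sylow a H) (hA : ¬ Triv V (A : Subgroup H))
    (hub : UF b H (⊥ : AddSubgroup V)) (B : Sylow b H) (hB : ¬ Triv V (B : Subgroup H)) :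
    3 ≤ ((Ker H V).relIndex C).primeFactors.card := by
  classical
  have h1 := num_dvd hN hp hn h hab hua A hA hub B hB {a, b} (by simp) (by simp) (by
    intro w hw
    rw [Finset.mem_insert, Finset.mem_singleton] at hw
    rcases hw with rfl | rfl
    · exact ⟨ha.out, (uf_card hp hn h hua A hA).1.trans h.dvd⟩
    · exact ⟨hb.out, (uf_card hp hn h hub B hB).1.trans h.dvd⟩)
  rwa [Finset.card_pair hab] at h1

/-- `|H : K| = |H : C| |C : K|`. -/
theorem index_eq {C : Subgroup H} {p n : ℕ} (h : SLD H V C p n) :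
    (Ker H V).index = (Ker H V).relIndex C * C.index :=
  (Subgroup.relIndex_mul_index h.ker).symm

theorem prime_dvd_index {C : Subgroup H} {p n : ℕ} (h : SLD H V C p n) {x : ℕ} (hx : x.Prime)
    (hd : x ∣ (Ker H V).index) : x ∣ (Ker H V).relIndex C ∨ x ∣ C.index := by
  rw [index_eq h] at hd
  exact hx.dvd_mul.1 hd

end

/-! ### The second configuration -/

section

variable {G : Type u} [Group G] [Finite G] {M P H : Subgroup G} [hM : M.Normal] [hP : P.Normal] {p : ℕ}

theorem finite_LC {N : Subgroup G} {p n : ℕ} (hp : p.Prime) (h : Nat.card (LC N) = p ^ n) :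
    Finite (LC N) :=
  Nat.finite_of_card_ne_zero (by rw [h]; exact (pow_pos hp.pos n).ne')

theorem nontrivial_LC {N : Subgroup G} {p n : ℕ} (hp : p.Prime) (hn : 0 < n)
    (h : Nat.card (LC N) = p ^ n) : Nontrivial (LC N) := by
  haveI := finite_LC hp h
  rw [← Finite.one_lt_card_iff_nontrivial, h]
  exact Nat.one_lt_pow hn.ne' hp.one_lt

theorem prime_not_dvd (h : T2 G M P H p) {x : ℕ} (hx : x ∣ Nat.card H) : x ≠ p :=
  fun e => h.ndvd (e ▸ hx)

theorem coprime_LC (h : T2 G M P H p) (hp : p.Prime) {y : ℕ} [hy : Fact y.Prime] (hyp : y ≠ p)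
    (Y : Sylow y H) : (Nat.card (Y : Subgroup H)).Coprime (Nat.card (LC P)) := by
  obtain ⟨n, hn⟩ := h.cardW
  obtain ⟨k, hk⟩ := IsPGroup.iff_card.1 Y.isPGroup'
  rw [hn]
  refine Nat.Coprime.pow_right _ ?_
  have h1 : Nat.card (Y : Subgroup H) = y ^ k := hk
  rw [h1]
  exact Nat.Coprime.pow_left _ ((Nat.coprime_primes hy.out hp).2 hyp)

/-- A normal Sylow `y`-subgroup `Y` nontrivial on `W`, and a prime `z` not adjacent to `y`. -/
theorem factB (hSL : FactSL.{u, u}) (hG : Group.IsSolvable G) (h : T2 G M P H p) (hp : p.Prime)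
    {y z : ℕ} [hy : Fact y.Prime] [hz : Fact z.Prime] (hyp : y ≠ p) (hzp : z ≠ p) (hzR : Rho z G)
    (hyz : NA y z G) (Y : Sylow y H) (hY : (Y : Subgroup H).Normal)
    (hYW : ¬ Triv (LC P) (Y : Subgroup H)) :
    (∀ Z : Sylow z H, ∀ x ∈ (Z : Subgroup H), ∀ v ∈ fixed (LC P) (Y : Subgroup H), x • v = v) ∧
    (∀ Z : Sylow z H, ¬ Triv (PSub (inv_com (V := LC P) (Y : Subgroup H) hY)) (Z : Subgroup H)) ∧
    UF z H (⊥ : AddSubgroup (PSub (inv_com (V := LC P) (Y : Subgroup H) hY))) ∧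
    ∃ (C : Subgroup H) (n : ℕ), 0 < n ∧
      SLD H (PSub (inv_com (V := LC P) (Y : Subgroup H) hY)) C p n := by
  obtain ⟨N, hN⟩ := h.cardW
  haveI := finite_LC hp hN
  haveI hH : Group.IsSolvable H := inferInstance
  have hcop := coprime_LC h hp hyp Y
  have hf := uf_of_cfg_fixed hH h.cfgW (z := z) (y := y)
    (fun e he _ h1 h2 => hyz e he h1 h2) Y hY
  have hcom : com (LC P) (Y : Subgroup H) ≠ ⊥ := fun e => hYW (com_eq_bot_iff.1 e)
  have hinf := fixed_inf_com (V := LC P) (Y : Subgroup H) hcop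
  have hfix : fixed (LC P) (Y : Subgroup H) ≠ ⊤ := by
    intro e
    apply hYW
    intro x hx v
    exact (e ▸ AddSubgroup.mem_top v : v ∈ fixed (LC P) (Y : Subgroup H)) x hx
  have hexv : ∃ v : LC P, v ∉ fixed (LC P) (Y : Subgroup H) := by
    by_contra hcon
    push Not at hcon
    exact hfix ((AddSubgroup.eq_top_iff' _).2 hcon)
  have h1 : ∀ Z : Sylow z H, ∀ x ∈ (Z : Subgroup H), ∀ v ∈ fixed (LC P) (Y : Subgroup H),
      x • v = v := fun Z =>
    hf.1.triv_of_compl (inv_fixed _ hY) (inv_com _ hY) hinf hcom Z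
  have h2 : ∀ Z : Sylow z H,
      ¬ Triv (PSub (inv_com (V := LC P) (Y : Subgroup H) hY)) (Z : Subgroup H) := by
    intro Z hZ
    rw [Sub.triv_iff] at hZ
    have h3 : Triv (LC P) (Z : Subgroup H) := by
      intro x hx v
      obtain ⟨a, ha, b, hb, rfl⟩ := com_sup_fixed (V := LC P) (Y : Subgroup H) hcop v
      rw [smul_add, hZ x hx a ha, h1 Z x hx b hb]
    exact h.nt z hz.out hzp hzR Z (hf.1.normal_of_triv hfix h3) (hf.2 hexv Z) h3
  have h3 : UF z H (⊥ : AddSubgroup (PSub (inv_com (V := LC P) (Y : Subgroup H) hY))) :=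
    hf.1.sub _ hinf
  obtain ⟨n, hn, hc⟩ := exists_card_fixed hp hN (com (LC P) (Y : Subgroup H))
  have hn0 : 0 < n := by
    rcases Nat.eq_zero_or_pos n with h0 | h0
    · rw [h0, pow_zero, AddSubgroup.card_eq_one] at hc
      exact absurd hc hcom
    · exact h0
  have hcs : Nat.card (PSub (inv_com (V := LC P) (Y : Subgroup H) hY)) = p ^ n := by
    rw [Sub.card]; exact hc
  obtain ⟨Z⟩ : Nonempty (Sylow z H) := inferInstance
  have hirr := h3.irr hp hcs (h2 Z)
  obtain ⟨C, hC⟩ := hSL H (PSub (inv_com (V := LC P) (Y : Subgroup H) hY)) p n z hH hp hn0 hcs hirr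
    hz.out hzp h3 ⟨Z, h2 Z⟩
  exact ⟨h1, h2, h3, C, n, hn0, hC⟩

/-- `K(W_y) ≤ K(V)`. -/
theorem ker_le (h : T2 G M P H p) {y : ℕ} [hy : Fact y.Prime] (hyp : y ≠ p) (hpy : NA p y G)
    (Y : Sylow y H) (hY : (Y : Subgroup H).Normal) (hYV : Triv (LC M) (Y : Subgroup H))
    (hYW : ¬ Triv (LC P) (Y : Subgroup H)) :
    Ker H (PSub (inv_com (V := LC P) (Y : Subgroup H) hY)) ≤ Ker H (LC M) := by
  intro x hx
  exact h.ker_com y hy.out hyp hpy Y hY hYV hYW x (fun w hw =>
    congrArg Sub.val (hx (Cfsg.Agent.H670.Palfy.Sub.mk _ w hw)))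

/-- A prime with the unique fixing property on `V` and on `W_y` acts trivially on `V`. -/
theorem triv_of_uf (h : T2 G M P H p) (hp : p.Prime) {y z : ℕ} [hy : Fact y.Prime]
    [hz : Fact z.Prime] (hyp : y ≠ p) (hpy : NA p y G)
    (Y : Sylow y H) (hY : (Y : Subgroup H).Normal) (hYV : Triv (LC M) (Y : Subgroup H))
    (hYW : ¬ Triv (LC P) (Y : Subgroup H)) (hu : UF z H (⊥ : AddSubgroup (LC M)))
    (hu' : UF z H (⊥ : AddSubgroup (PSub (inv_com (V := LC P) (Y : Subgroup H) hY))))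
    (Z : Sylow z H) : Triv (LC M) (Z : Subgroup H) := by
  by_contra hcon
  obtain ⟨N, hN⟩ := h.cardW
  obtain ⟨n, hn0, hn⟩ := h.card
  haveI := finite_LC hp hN
  haveI := finite_LC hp hn
  obtain ⟨m, hm, hc⟩ := exists_card_fixed hp hN (com (LC P) (Y : Subgroup H))
  have hlt := h.card_com y hy.out hyp hpy Y hY hYV hYW
  rw [hn, hc] at hlt
  have h1 : n < m := (Nat.pow_lt_pow_iff_right hp.one_lt).1 hlt
  have h2 := UF.card_eq hp hu hu' hn (by rw [Sub.card]; exact hc) hn0 (by omega)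
    (hu.card_ne_one hcon)
  omega

/-- The generator of `C` does not act trivially on `V`. -/
theorem no_ker (h : T2 G M P H p) (hp : p.Prime) {y s : ℕ} [hy : Fact y.Prime] [hs : Fact s.Prime]
    (hyp : y ≠ p) (hsp : s ≠ p) (hpy : NA p y G) (Y : Sylow y H) (hY : (Y : Subgroup H).Normal)
    (hYV : Triv (LC M) (Y : Subgroup H)) (hYW : ¬ Triv (LC P) (Y : Subgroup H))
    {C : Subgroup H} {n : ℕ} (hn : 0 < n)
    (hC : SLD H (PSub (inv_com (V := LC P) (Y : Subgroup H) hY)) C p n)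
    (hu : UF s H (⊥ : AddSubgroup (PSub (inv_com (V := LC P) (Y : Subgroup H) hY))))
    (S : Sylow s H) (hS : ¬ Triv (PSub (inv_com (V := LC P) (Y : Subgroup H) hY)) (S : Subgroup H))
    (hCV : C ≤ Ker H (LC M)) : False := by
  obtain ⟨N, hN⟩ := h.cardW
  haveI := finite_LC hp hN
  obtain ⟨g, hg, hgen, hirr⟩ := hC.gen
  have hcard : Nat.card (com (LC P) (Y : Subgroup H)) = p ^ n := by
    rw [← hC.card, Sub.card]
  obtain ⟨i, hi, hgi⟩ := h.pow_com y hy.out hyp hpy Y hY hYV hYW n hcard g (hCV hg) (by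
    intro Z hZ hgZ
    let Z' : AddSubgroup (PSub (inv_com (V := LC P) (Y : Subgroup H) hY)) :=
      { carrier := {y | y.val ∈ Z}
        zero_mem' := zero_mem Z
        add_mem' := fun {a b} ha hb => by
          change a.val + b.val ∈ Z
          exact add_mem ha hb
        neg_mem' := fun {a} ha => by
          change -a.val ∈ Z
          exact neg_mem ha }
    rcases hirr Z' (fun w hw => hgZ _ hw) with h1 | h1
    · left
      rw [eq_bot_iff]
      intro z hz
      have h2 : Cfsg.Agent.H670.Palfy.Sub.mk (inv_com (V := LC P) (Y : Subgroup H) hY) z (hZ hz) ∈ Z' := hz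
      rw [h1, AddSubgroup.mem_bot] at h2
      exact congrArg Sub.val h2
    · right
      apply le_antisymm hZ
      intro y hy
      have h2 : Cfsg.Agent.H670.Palfy.Sub.mk (inv_com (V := LC P) (Y : Subgroup H) hY) y hy ∈ Z' := by
        rw [h1]; exact AddSubgroup.mem_top _
      exact h2)
  exact hC.no_pow hp hn hsp hu S hS hg hgen hi (fun v => Sub.ext (hgi v.val v.mem))

end

end Cfsg.Agent.H734.Prism
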