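import Cfsg.Agent.H849.FactNum

/-!
# Two prime divisors of `(p ^ n - 1) / (p ^ m - 1)` (helper734)
-/

set_option autoImplicit false

namespace Cfsg.Agent.H734.Prism

open Cfsg.Agent.H849.FactNum

theorem factNum1 (p n m k s r : ℕ) (hp : p.Prime) (hs : s.Prime) (hr : r.Prime) (hsp : s ≠ p)
    (hrs : r ≠ s) (hn : 0 < n) (hnm : n = m * s ^ k) (hk : 0 < k) (hrn : r ∣ n)
    (hmod : (p ^ n - 1) / (p ^ m - 1) ≡ 1 [MOD s]) :
    2 ≤ ((p ^ n - 1) / (p ^ m - 1)).primeFactors.card := by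
  have hm0 : m ≠ 0 := by
    rintro rfl
    rw [zero_mul] at hnm
    omega
  have hno : ¬ p ^ m ≡ 1 [MOD s] := not_one hp.two_le hm0 hs hk hnm hmod
  have hs2 : s ≠ 2 := by
    rintro rfl
    have hodd : Odd p := hp.odd_of_ne_two (fun h => hsp h.symm)
    apply hno
    have h1 : Odd (p ^ m) := hodd.pow
    rw [Nat.ModEq, Nat.odd_iff.1 h1]
  have hso : Odd s := hs.odd_of_ne_two hs2
  have h3 : s = 3 → p = 2 → Odd m := by
    intro h3 hp2
    by_contra hne
    rw [Nat.not_odd_iff_even] at hne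
    obtain ⟨c, hc⟩ := hne
    apply hno
    rw [h3, hp2, hc, ← two_mul, pow_mul]
    have : (2 ^ 2 : ℕ) ≡ 1 [MOD 3] := by decide
    have := this.pow c
    rwa [one_pow] at this
  have hs3 : 3 ≤ s := by
    have := hs.two_le
    omega
  have hsk : 3 ≤ s ^ k := le_trans hs3 (Nat.le_self_pow hk.ne' s)
  obtain ⟨m', hm'⟩ : r ∣ m := by
    rw [hnm] at hrn
    rcases hr.dvd_mul.1 hrn with h | h
    · exact h
    · exact absurd ((Nat.prime_dvd_prime_iff_eq hr hs).1 (hr.dvd_of_dvd_pow h)) hrs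
  have hm'0 : m' ≠ 0 := by
    rintro rfl
    rw [mul_zero] at hm'
    exact hm0 hm'
  set d := m' * s ^ k with hd
  have hnd : n = r * d := by rw [hnm, hm', hd, mul_assoc]
  have hd3 : 3 ≤ d := by
    have : 1 * s ^ k ≤ m' * s ^ k := Nat.mul_le_mul_right _ (Nat.pos_of_ne_zero hm'0)
    omega
  have hr2 := hr.two_le
  have hn6 : 6 ≤ n := by
    rw [hnd]
    calc 6 = 2 * 3 := rfl
      _ ≤ r * d := Nat.mul_le_mul hr2 hd3
  have hsk1 : s ∣ s ^ k := dvd_pow_self s hk.ne'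
  -- `6` is excluded
  have hno6 : ∀ c : ℕ, c * s ^ k = 6 → p = 2 → Even m → False := by
    intro c hc hp2 hme
    have h4 : s ∣ 6 := hc ▸ Dvd.dvd.mul_left hsk1 c
    have h5 : s = 3 := by
      have h6 : s ∣ 2 * 3 := h4
      rcases hs.dvd_mul.1 h6 with h7 | h7
      · exact absurd ((Nat.prime_dvd_prime_iff_eq hs Nat.prime_two).1 h7) hs2
      · exact (Nat.prime_dvd_prime_iff_eq hs Nat.prime_three).1 h7
    have h6 := h3 h5 hp2
    rw [← Nat.not_even_iff_odd] at h6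
    exact h6 hme
  have heven : ∀ c : ℕ, c * s ^ k = 6 → Even c := by
    intro c hc
    have h4 : Even (c * s ^ k) := by rw [hc]; decide
    rcases Nat.even_mul.1 h4 with h5 | h5
    · exact h5
    · have h6 : Odd (s ^ k) := hso.pow
      rw [← Nat.not_even_iff_odd] at h6
      exact absurd h5 h6
  obtain ⟨t1, ht1, hp1, -, -⟩ := Lib.Zsigmondy.exists_primitive (a := p) (n := n) hp.two_le (by omega)
    (by omega) (by
      rintro ⟨h4, h5⟩
      exact hno6 m (by rw [← hnm]; exact h5) h4 (heven m (by rw [← hnm]; exact h5)))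
  obtain ⟨t2, ht2, hp2, -, -⟩ := Lib.Zsigmondy.exists_primitive (a := p) (n := d) hp.two_le (by omega)
    (by omega) (by
      rintro ⟨h4, h5⟩
      refine hno6 m' h5 h4 ?_
      rw [hm']
      exact (heven m' h5).mul_left r)
  have hfac : fac p n m * (p ^ m - 1) = p ^ n - 1 := fac_mul ⟨_, hnm⟩
  have hd1 : t1 ∣ fac p n m := by
    have h4 : t1 ∣ fac p n m * (p ^ m - 1) := by rw [hfac]; exact (hp1 n).2 dvd_rfl
    refine (ht1.dvd_mul.1 h4).resolve_right fun h5 => ?_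
    have h6 := Nat.le_of_dvd (Nat.pos_of_ne_zero hm0) ((hp1 m).1 h5)
    rw [hnm] at h6
    have h7 : m * 3 ≤ m * s ^ k := Nat.mul_le_mul_left _ hsk
    omega
  have hd2 : t2 ∣ fac p n m := by
    have h4 : t2 ∣ fac p n m * (p ^ m - 1) := by
      rw [hfac]; exact (hp2 n).2 ⟨r, by rw [hnd, mul_comm]⟩
    refine (ht2.dvd_mul.1 h4).resolve_right fun h5 => ?_
    have h6 := (hp2 m).1 h5
    rw [hm', hd, mul_comm r] at h6
    have h7 : s ^ k ∣ r := Nat.dvd_of_mul_dvd_mul_left (Nat.pos_of_ne_zero hm'0) h6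
    exact hrs ((Nat.prime_dvd_prime_iff_eq hs hr).1 (hsk1.trans h7)).symm
  have hne : t1 ≠ t2 := by
    rintro rfl
    have h4 := Nat.le_of_dvd (by omega) ((hp1 d).1 ((hp2 d).2 dvd_rfl))
    rw [hnd] at h4
    have h5 : 2 * d ≤ r * d := Nat.mul_le_mul_right _ hr2
    omega
  have h4 : fac p n m ≠ 0 := by
    intro h0
    rw [h0, zero_mul] at hfac
    have := Nat.one_lt_pow hn.ne' hp.one_lt
    omega
  have h5 : ({t1, t2} : Finset ℕ) ⊆ (fac p n m).primeFactors := by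
    intro x hx
    rw [Finset.mem_insert, Finset.mem_singleton] at hx
    rcases hx with rfl | rfl
    · exact Nat.mem_primeFactors.2 ⟨ht1, hd1, h4⟩
    · exact Nat.mem_primeFactors.2 ⟨ht2, hd2, h4⟩
  have h6 := Finset.card_le_card h5
  rw [Finset.card_pair hne] at h6
  exact h6

end Cfsg.Agent.H734.Prism
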