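import Cfsg.Agent.H734.Prism.Main
import Cfsg.Agent.H734.Prism.Num

/-!
# The prism does not occur (helper734)
-/

set_option autoImplicit false

namespace Cfsg.Agent.H734.Prism

open Cfsg.Agent.H670.Palfy

universe u

theorem factNum1' : FactNum1 := factNum1

theorem noPrism_of (hSL : FactSL.{u, u}) (h1 : FactT1.{u}) (hpre : FactT2pre.{u})
    (ha : FactT2a.{u}) (hb : FactT2b.{u}) : NoPrism.{u} :=
  noPrism hSL H849.FactNum.factNum h1 hpre ha hb factNum1

end Cfsg.Agent.H734.Prism
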