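import Cfsg.Agent.H670.Palfy.Sld
import Cfsg.Agent.Blocks.Over
import Cfsg.Agent.S0887

/-!
# Degree graphs of solvable groups: lemmas for the exclusions (helper734)
-/

set_option autoImplicit false
set_option linter.unusedSectionVars false
set_option linter.style.haveILetI false

namespace Cfsg.Agent.H734.Prism

open Subgroup Cfsg.Agent.H670.Palfy

local notation "PSub" => Cfsg.Agent.H670.Palfy.Sub

universe u v w

/-! ### Degrees of normal subgroups -/

theorem deg_normal {T : Type u} [Group T] [Finite T] (K : Subgroup T) [K.Normal] {d : ℕ}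
    (hd : d ∈ Cfsg.charDegrees K) : ∃ e ∈ Cfsg.charDegrees T, d ∣ e := by
  classical
  haveI := Fintype.ofFinite T
  haveI := Fintype.ofFinite K
  obtain ⟨θ, hθ, h1⟩ := H681.DegBasic.mem_charDegrees.1 hd
  obtain ⟨χ, hχ⟩ := Cfsg.Agent.Blocks.Over.exists_over K ⟨θ, hθ⟩
  obtain ⟨c, hc, hc'⟩ := Cfsg.Agent.Characters.Core.isIrr_apply_one χ.2
  exact ⟨c, H681.DegBasic.mem_charDegrees.2 ⟨χ, χ.2, hc'⟩,
    (S0887.result K χ χ.2 θ hθ hχ c d hc' h1).1⟩

theorem deg_le {H : Type u} [Group H] [Finite H] {K T : Subgroup H} [hK : K.Normal] (hKT : K ≤ T)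
    {d : ℕ} (hd : d ∈ Cfsg.charDegrees K) : ∃ e ∈ Cfsg.charDegrees T, d ∣ e := by
  haveI : (K.subgroupOf T).Normal := hK.subgroupOf T
  exact deg_normal (K.subgroupOf T) (H681.DegBasic.charDegrees_comp
    (Subgroup.subgroupOfEquivOfLe hKT).toMonoidHom (Subgroup.subgroupOfEquivOfLe hKT).surjective hd)

/-! ### Sylow subgroups of normal subgroups -/

section

variable {H : Type u} [Group H] [Finite H]

theorem sylow_le {z : ℕ} [hz : Fact z.Prime] (K : Subgroup H) [hK : K.Normal] (hi : ¬ z ∣ K.index)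
    (Z : Sylow z H) : (Z : Subgroup H) ≤ K := by
  obtain ⟨Z1, hZ1⟩ := exists_sylow_le (z := z) K hi
  obtain ⟨g, rfl⟩ := MulAction.exists_smul_eq H Z1 Z
  intro x hx
  have h1 := hK.conj_mem _ (hZ1 (mem_smul_sylow.1 hx)) g
  have h2 : g * (g⁻¹ * x * g) * g⁻¹ = x := by group
  rwa [h2] at h1

theorem not_dvd_of_sylow_le {z : ℕ} [hz : Fact z.Prime] {K : Subgroup H} {Z : Sylow z H}
    (h : (Z : Subgroup H) ≤ K) : ¬ z ∣ K.index := by
  intro h1
  exact Z.not_dvd_index (h1.trans (Subgroup.index_dvd_of_le h))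

/-- A normal subgroup of index prime to `z` all of whose degrees are prime to `z`. -/
theorem normal_sylow (hH : Group.IsSolvable H) {z : ℕ} [hz : Fact z.Prime] (K : Subgroup H)
    [hK : K.Normal] (hi : ¬ z ∣ K.index) (hd : ∀ e ∈ Cfsg.charDegrees K, ¬ z ∣ e) (Z : Sylow z H) :
    (Z : Subgroup H) ≤ K ∧ (Z : Subgroup H).Normal ∧
      ∀ a ∈ (Z : Subgroup H), ∀ b ∈ (Z : Subgroup H), a * b = b * a := by
  have hle : ∀ Z : Sylow z H, (Z : Subgroup H) ≤ K := sylow_le K hi
  have hs : Group.IsSolvable K := inferInstance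
  have h1 := fun Q : Sylow z K => im_solvable hs hd Q
  refine ⟨hle Z, ?_, ?_⟩
  · have : Subsingleton (Sylow z H) := by
      refine ⟨fun A B => ?_⟩
      have : Subsingleton (Sylow z K) :=
        (Sylow.unique_of_normal (A.subtype (hle A)) (h1 _).1).instSubsingleton
      have h2 : A.subtype (hle A) = B.subtype (hle B) := Subsingleton.elim _ _
      apply Sylow.ext
      have h3 := congrArg (fun Q : Sylow z K => (Q : Subgroup K).map K.subtype) h2
      simp only [Sylow.coe_subtype] at h3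
      rwa [Subgroup.map_subgroupOf_eq_of_le (hle A), Subgroup.map_subgroupOf_eq_of_le (hle B)] at h3
    exact Sylow.normal_of_subsingleton Z
  · intro a ha b hb
    have h2 := (h1 (Z.subtype (hle Z))).2 ⟨a, hle Z ha⟩
      (by rw [Sylow.coe_subtype, Subgroup.mem_subgroupOf]; exact ha) ⟨b, hle Z hb⟩
      (by rw [Sylow.coe_subtype, Subgroup.mem_subgroupOf]; exact hb)
    exact congrArg Subtype.val h2

end

/-! ### Modules -/

section

variable {H : Type u} {V : Type v} [Group H] [AddCommGroup V] [DistribMulAction H V]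

/-- The action. -/
def act (H : Type u) (V : Type v) [Group H] [AddCommGroup V] [DistribMulAction H V] :
    H →* Equiv.Perm V := MulAction.toPermHom H V

theorem act_apply (h : H) (v : V) : act H V h v = h • v := rfl

theorem act_eq_one {h : H} : act H V h = 1 ↔ h ∈ Ker H V := by
  constructor
  · intro e v
    have := DFunLike.congr_fun e v
    exact this
  · intro e
    ext v
    exact e v

theorem act_eq {a b : H} : act H V a = act H V b ↔ a * b⁻¹ ∈ Ker H V := by
  rw [← act_eq_one, map_mul, map_inv, mul_inv_eq_one]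

theorem triv_iff_le {Z : Subgroup H} : Triv V Z ↔ Z ≤ Ker H V := Iff.rfl

theorem irr_sub {Y : AddSubgroup V} {hY : Inv H Y} (h : Irr H (PSub hY)) {Z : AddSubgroup V}
    (hZY : Z ≤ Y) (hZ : Inv H Z) : Z = ⊥ ∨ Z = Y := by
  let Z' : AddSubgroup (PSub hY) :=
    { carrier := {y | y.val ∈ Z}
      zero_mem' := by
        change (0 : PSub hY).val ∈ Z
        rw [Sub.val_zero]; exact zero_mem _
      add_mem' := fun {a b} ha hb => by
        change a.val + b.val ∈ Z
        exact add_mem ha hb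
      neg_mem' := fun {a} ha => by
        change -a.val ∈ Z
        exact neg_mem ha }
  rcases h Z' (fun h w hw => hZ h _ hw) with h1 | h1
  · left
    rw [eq_bot_iff]
    intro z hz
    have h2 : Cfsg.Agent.H670.Palfy.Sub.mk hY z (hZY hz) ∈ Z' := hz
    rw [h1, AddSubgroup.mem_bot] at h2
    exact congrArg Sub.val h2
  · right
    apply le_antisymm hZY
    intro y hy
    have h2 : Cfsg.Agent.H670.Palfy.Sub.mk hY y hy ∈ Z' := by rw [h1]; exact AddSubgroup.mem_top _
    exact h2

theorem stabilizer_sub {Y : AddSubgroup V} {hY : Inv H Y} (y : PSub hY) :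
    MulAction.stabilizer H y = MulAction.stabilizer H y.val := by
  ext h
  rw [MulAction.mem_stabilizer_iff, MulAction.mem_stabilizer_iff, Sub.smul_eq_iff]

theorem cfg_sub {D : Set ℕ} {k : ℕ} {Y : AddSubgroup V} (hY : Inv H Y) (hc : Cfg D H V k) :
    Cfg D H (PSub hY) k := by
  intro y hy
  have h1 : y.val ≠ 0 := fun h => hy (Sub.ext h)
  rw [stabilizer_sub]
  exact hc _ h1

theorem sub_nontrivial {Y : AddSubgroup V} (hY : Inv H Y) (h : Y ≠ ⊥) : Nontrivial (PSub hY) := by
  obtain ⟨y, hy, hy0⟩ := (AddSubgroup.bot_or_exists_ne_zero Y).resolve_left h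
  refine ⟨⟨Cfsg.Agent.H670.Palfy.Sub.mk hY y hy, 0, fun e => hy0 ?_⟩⟩
  exact congrArg Sub.val e

end

section

variable {H : Type u} {V : Type v} {Y : Type w} [Group H] [AddCommGroup V] [DistribMulAction H V]
  [AddCommGroup Y] [DistribMulAction H Y] [Finite H]

/-- The action of `H` on `C` modulo the kernel is by powers. -/
theorem exists_pow {C : Subgroup H} {p n : ℕ} (h : SLD H Y C p n) (hK : Ker H Y ≤ Ker H V)
    (g : H) : ∃ j : ℤ, ∀ x ∈ C, act H Y (g * x * g⁻¹) = act H Y x ^ j ∧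
      act H V (g * x * g⁻¹) = act H V x ^ j := by
  obtain ⟨c, hc, hgen, -⟩ := h.gen
  obtain ⟨j, hj⟩ := hgen (g * c * g⁻¹) (h.nrm.conj_mem c hc g)
  refine ⟨j, fun x hx => ?_⟩
  obtain ⟨i, hi⟩ := hgen x hx
  constructor
  · have h1 : act H Y x = act H Y c ^ i := by rw [← map_pow, act_eq]; exact hi
    have h2 : act H Y (g * c * g⁻¹) = act H Y c ^ j := by rw [← map_pow, act_eq]; exact hj
    rw [map_mul, map_mul, h1, map_inv, ← conj_pow, ← map_inv, ← map_mul, ← map_mul, h2, zpow_natCast,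
      ← pow_mul, ← pow_mul, mul_comm]
  · have h1 : act H V x = act H V c ^ i := by rw [← map_pow, act_eq]; exact hK hi
    have h2 : act H V (g * c * g⁻¹) = act H V c ^ j := by rw [← map_pow, act_eq]; exact hK hj
    rw [map_mul, map_mul, h1, map_inv, ← conj_pow, ← map_inv, ← map_mul, ← map_mul, h2, zpow_natCast,
      ← pow_mul, ← pow_mul, mul_comm]

/-- A prime dividing `|H : K(V)|` but not `|H : C|` divides the lengths of all orbits on `V`. -/
theorem dvd_stab {C : Subgroup H} {p n : ℕ} (h : SLD H Y C p n) (hK : Ker H Y ≤ Ker H V)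
    (hirr : Irr H V) {z : ℕ} [hz : Fact z.Prime] (hzC : ¬ z ∣ C.index)
    (hzV : z ∣ (Ker H V).index) {v : V} (hv : v ≠ 0) : z ∣ (MulAction.stabilizer H v).index := by
  haveI := h.nrm
  by_contra hcon
  obtain ⟨Z, hZ⟩ := exists_sylow_le (z := z) _ hcon
  have hZC := sylow_le C hzC Z
  refine not_dvd_of_sylow_le (Z := Z) (K := Ker H V) ?_ hzV
  intro x hx
  let F : AddSubgroup V :=
    { carrier := {w | x • w = w}
      zero_mem' := smul_zero x
      add_mem' := fun {a b} ha hb => by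
        change x • (a + b) = a + b
        rw [smul_add, ha, hb]
      neg_mem' := fun {a} ha => by
        change x • (-a) = -a
        rw [smul_neg, ha] }
  have hF : ∀ w, w ∈ F ↔ act H V x w = w := fun _ => Iff.rfl
  rcases hirr F (by
    intro g w hw
    obtain ⟨j, hj⟩ := exists_pow h hK g⁻¹
    have h1 := (hj x (hZC hx)).2
    rw [inv_inv] at h1
    have h2 : act H V (g⁻¹ * x * g) w = w := by
      rw [h1]
      have h3 : act H V x ∈ MulAction.stabilizer (Equiv.Perm V) w := hw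
      exact zpow_mem h3 j
    rw [act_apply, mul_smul, mul_smul, inv_smul_eq_iff] at h2
    exact h2) with h1 | h1
  · have h2 : v ∈ F := hZ hx
    rw [h1, AddSubgroup.mem_bot] at h2
    exact absurd h2 hv
  · intro w
    exact (h1 ▸ AddSubgroup.mem_top w : w ∈ F)

/-- Elements of `C` act trivially on `V` if `|C : K(Y)|` and `|H : K(V)|` are coprime. -/
theorem le_ker {C : Subgroup H} {p n : ℕ} (h : SLD H Y C p n) (hK : Ker H Y ≤ Ker H V)
    (hcop : ∀ x : ℕ, x.Prime → x ∣ (Ker H Y).relIndex C → ¬ x ∣ (Ker H V).index) : C ≤ Ker H V := by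
  intro g hg
  have h1 : g ^ (Ker H Y).relIndex C ∈ Ker H V := by
    apply hK
    haveI : ((Ker H Y).subgroupOf C).Normal := (inferInstance : (Ker H Y).Normal).subgroupOf C
    have h2 := Subgroup.pow_index_mem ((Ker H Y).subgroupOf C) (⟨g, hg⟩ : C)
    rw [Subgroup.mem_subgroupOf] at h2
    exact h2
  have h2 : g ^ (Ker H V).index ∈ Ker H V := Subgroup.pow_index_mem _ g
  have h3 : orderOf (act H V g) ∣ (Ker H Y).relIndex C := by
    apply orderOf_dvd_of_pow_eq_one
    rw [← map_pow, act_eq_one]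
    exact h1
  have h4 : orderOf (act H V g) ∣ (Ker H V).index := by
    apply orderOf_dvd_of_pow_eq_one
    rw [← map_pow, act_eq_one]
    exact h2
  rw [← act_eq_one, ← orderOf_eq_one_iff]
  by_contra hcon
  obtain ⟨x, hx, hx'⟩ := Nat.exists_prime_and_dvd hcon
  exact hcop x hx (hx'.trans h3) (hx'.trans h4)

/-- If `S` is trivial on `V`, `z` divides `|H : K(V)|` but not `|H : C|`, then the number of Sylow subgroups is
prime to `z`. -/
theorem not_dvd_card [Finite Y] {C : Subgroup H} {p n : ℕ} (hp : p.Prime) (hn : 0 < n)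
    (h : SLD H Y C p n) (hK : Ker H Y ≤ Ker H V) {z s : ℕ} [hz : Fact z.Prime] [hs : Fact s.Prime]
    (hzs : z ≠ s) (hzC : ¬ z ∣ C.index) (hzV : z ∣ (Ker H V).index)
    (hu : UF s H (⊥ : AddSubgroup Y)) (S : Sylow s H) (hSY : ¬ Triv Y (S : Subgroup H))
    (hSV : Triv V (S : Subgroup H)) : ¬ z ∣ Nat.card (Sylow s H) := by
  haveI := h.nrm
  obtain ⟨Z⟩ : Nonempty (Sylow z H) := inferInstance
  have hZC := sylow_le C hzC Z
  -- elements of `Z` have `z`-power order
  have hord : ∀ x ∈ (Z : Subgroup H), ∃ e : ℕ, x ^ (z ^ e) = 1 := by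
    intro x hx
    obtain ⟨e, he⟩ := Z.isPGroup' ⟨x, hx⟩
    exact ⟨e, congrArg Subtype.val he⟩
  have hcomm : ∀ x ∈ (Z : Subgroup H), ∀ g ∈ (S : Subgroup H), g * x * g⁻¹ * x⁻¹ ∈ Ker H Y := by
    intro x hx g hg
    obtain ⟨j, hj⟩ := exists_pow h hK g
    have hgV : act H V g = 1 := act_eq_one.2 (hSV g hg)
    -- `z ∣ j - 1`
    have hzj : (z : ℤ) ∣ j - 1 := by
      by_contra hcon
      refine not_dvd_of_sylow_le (Z := Z) (K := Ker H V) ?_ hzV
      intro y hy
      obtain ⟨e, he⟩ := hord y hy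
      have h1 := (hj y (hZC hy)).2
      rw [map_mul, map_mul, hgV, one_mul, map_inv, hgV, inv_one, mul_one] at h1
      have h2 : act H V y ^ (j - 1) = 1 := by
        rw [zpow_sub_one, ← h1, mul_inv_cancel]
      have h3 : act H V y ^ ((z ^ e : ℕ) : ℤ) = 1 := by
        rw [zpow_natCast, ← map_pow, he, map_one]
      have h4 : IsCoprime (j - 1) ((z ^ e : ℕ) : ℤ) := by
        push_cast
        apply IsCoprime.pow_right
        exact ((Nat.prime_iff_prime_int.1 hz.out).coprime_iff_not_dvd.2 hcon).symm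
      obtain ⟨a, b, hab⟩ := h4
      rw [← act_eq_one]
      calc act H V y = act H V y ^ (a * (j - 1) + b * ((z ^ e : ℕ) : ℤ)) := by rw [hab, zpow_one]
        _ = 1 := by
          rw [zpow_add, mul_comm a, mul_comm b, zpow_mul, zpow_mul, h2, h3, one_zpow, one_zpow, one_mul]
    -- powers of `g`
    have hpow : ∀ k : ℕ, act H Y (g ^ k * x * (g ^ k)⁻¹) = act H Y x ^ (j ^ k) := by
      intro k
      induction k with
      | zero => simp
      | succ k ih =>
        have h1 : g ^ (k + 1) * x * (g ^ (k + 1))⁻¹ = g * (g ^ k * x * (g ^ k)⁻¹) * g⁻¹ := by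
          rw [pow_succ']; group
        rw [h1, (hj _ (h.nrm.conj_mem x (hZC hx) _)).1, ih, ← zpow_mul, pow_succ]
    obtain ⟨f, hf⟩ := S.isPGroup' ⟨g, hg⟩
    have hf' : g ^ (s ^ f) = 1 := congrArg Subtype.val hf
    have h1 := hpow (s ^ f)
    rw [hf', one_mul, inv_one, mul_one] at h1
    have h2 : act H Y x ^ (j ^ (s ^ f) - 1) = 1 := by
      rw [zpow_sub_one, ← h1, mul_inv_cancel]
    rw [← mul_geom_sum, zpow_mul] at h2
    obtain ⟨e, he⟩ := hord x hx
    have h3 : (act H Y x ^ (j - 1)) ^ ((z ^ e : ℕ) : ℤ) = 1 := by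
      rw [← zpow_mul, mul_comm, zpow_mul, zpow_natCast, ← map_pow, he, map_one, one_zpow]
    have h4 : ¬ (z : ℤ) ∣ ∑ i ∈ Finset.range (s ^ f), j ^ i := by
      intro hd
      have h5 : (∑ i ∈ Finset.range (s ^ f), j ^ i) ≡ ((s ^ f : ℕ) : ℤ) [ZMOD z] := by
        have h6 : ∀ i ∈ Finset.range (s ^ f), j ^ i ≡ 1 [ZMOD z] := by
          intro i _
          have h7 : j ≡ 1 [ZMOD z] := (Int.modEq_iff_dvd.2 (by
            rw [← neg_sub]; exact (dvd_neg).2 hzj))
          have := h7.pow i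
          rwa [one_pow] at this
        have h8 := Int.ModEq.sum (s := Finset.range (s ^ f)) (f := fun i => j ^ i) (g := fun _ => 1) (n := z) h6
        rwa [Finset.sum_const, Finset.card_range, nsmul_eq_mul, mul_one] at h8
      have h6 : (z : ℤ) ∣ ((s ^ f : ℕ) : ℤ) := h5.dvd_iff.1 hd
      have h7 : z ∣ s ^ f := by exact_mod_cast h6
      exact hzs ((Nat.prime_dvd_prime_iff_eq hz.out hs.out).1 (hz.out.dvd_of_dvd_pow h7))
    have h5 : IsCoprime (∑ i ∈ Finset.range (s ^ f), j ^ i) ((z ^ e : ℕ) : ℤ) := by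
      push_cast
      apply IsCoprime.pow_right
      exact ((Nat.prime_iff_prime_int.1 hz.out).coprime_iff_not_dvd.2 h4).symm
    obtain ⟨a, b, hab⟩ := h5
    have h6 : act H Y x ^ (j - 1) = 1 := by
      calc act H Y x ^ (j - 1) = (act H Y x ^ (j - 1)) ^
          (a * (∑ i ∈ Finset.range (s ^ f), j ^ i) + b * ((z ^ e : ℕ) : ℤ)) := by
            rw [hab, zpow_one]
        _ = 1 := by
          rw [zpow_add, mul_comm a, mul_comm b, zpow_mul, zpow_mul, h2, h3, one_zpow, one_zpow, one_mul]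
    rw [← act_eq_one, map_mul, (hj x (hZC hx)).1, map_inv, ← zpow_sub_one]
    exact h6
  -- a vector fixed by `S`
  obtain ⟨m, hm0, hmn, hm, -⟩ := hu.params hp h.card hn S (hu.card_ne_one hSY)
  obtain ⟨y, hy, hy0⟩ := (AddSubgroup.bot_or_exists_ne_zero (fixed Y (S : Subgroup H))).resolve_left (by
    intro h0
    rw [h0, AddSubgroup.card_bot] at hm
    have := Nat.one_lt_pow hm0.ne' hp.one_lt
    omega)
  obtain ⟨S', hS', huq⟩ := hu y hy0
  have hZN : (Z : Subgroup H) ≤ Subgroup.normalizer (S : Set H) := by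
    intro x hx
    rw [← Sylow.smul_eq_iff_mem_normalizer]
    rw [huq S hy]
    refine huq _ ?_
    rw [← huq S hy]
    intro t ht
    have h1 := mem_smul_sylow.1 ht
    -- `x⁻¹ t x = σ ∈ S`
    have h2 := hcomm x⁻¹ (inv_mem hx) _ h1
    have h3 : t = (t * (x⁻¹ * t * x)⁻¹) * (x⁻¹ * t * x) := by group
    have h4 : act H Y t = act H Y (x⁻¹ * t * x) := by
      rw [act_eq]
      have h5 := hcomm x hx _ h1
      have h6 := (instKerNormal (H := H) (V := Y)).conj_mem _ (inv_mem h5) 1
      have h7 : t * (x⁻¹ * t * x)⁻¹ = (x⁻¹ * t * x * x * (x⁻¹ * t * x)⁻¹ * x⁻¹)⁻¹ := by group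
      rw [h7]
      exact inv_mem h5
    have h5 : act H Y t y = y := by
      rw [h4]
      exact hy _ h1
    exact h5
  rw [Sylow.card_eq_index_normalizer S]
  exact not_dvd_of_sylow_le hZN

end

end Cfsg.Agent.H734.Prism
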