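import Cfsg.Agent.H734.Prism.Conf

/-!
# Degree graphs of solvable groups: the prism does not occur (helper734, plan of helper670)
-/

set_option autoImplicit false
set_option linter.unusedSectionVars false
set_option linter.style.haveILetI false

namespace Cfsg.Agent.H734.Prism

open Subgroup Cfsg.Agent.H670.Palfy

local notation "PSub" => Cfsg.Agent.H670.Palfy.Sub

universe u v w

/-- The degree primes of `G`, six primes cyclically not adjacent. -/
structure Hex (G : Type u) [Group G] (p q s w u r : ℕ) : Prop where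
  pp : p.Prime
  pq : q.Prime
  ps : s.Prime
  pw : w.Prime
  pu : u.Prime
  pr : r.Prime
  rp : Rho p G
  rq : Rho q G
  rs : Rho s G
  rw : Rho w G
  ru : Rho u G
  rr : Rho r G
  all : ∀ x : ℕ, x.Prime → Rho x G → x = p ∨ x = q ∨ x = s ∨ x = w ∨ x = u ∨ x = r
  apq : NA p q G
  aqs : NA q s G
  asw : NA s w G
  awu : NA w u G
  aur : NA u r G
  arp : NA r p G
  nd : [p, q, s, w, u, r].Nodup

theorem NA.symm {a b : ℕ} {G : Type u} [Group G] (h : NA a b G) : NA b a G :=
  fun e he h1 h2 => h e he h2 h1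

variable {G : Type u} [Group G] {p q s w u r : ℕ}

theorem Hex.rev (h : Hex G p q s w u r) : Hex G p r u w s q where
  pp := h.pp
  pq := h.pr
  ps := h.pu
  pw := h.pw
  pu := h.ps
  pr := h.pq
  rp := h.rp
  rq := h.rr
  rs := h.ru
  rw := h.rw
  ru := h.rs
  rr := h.rq
  all := fun x hx hR => by
    rcases h.all x hx hR with h1 | h1 | h1 | h1 | h1 | h1 <;> tauto
  apq := NA.symm h.arp
  aqs := NA.symm h.aur
  asw := NA.symm h.awu
  awu := NA.symm h.asw
  aur := NA.symm h.aqs
  arp := NA.symm h.apq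
  nd := by
    have := h.nd
    simp only [List.nodup_cons, List.mem_cons, List.not_mem_nil, or_false, not_or, List.nodup_nil,
      not_false_eq_true, and_true] at this ⊢
    tauto

theorem Hex.ne (h : Hex G p q s w u r) : (p ≠ q ∧ p ≠ s ∧ p ≠ w ∧ p ≠ u ∧ p ≠ r) ∧
    (q ≠ s ∧ q ≠ w ∧ q ≠ u ∧ q ≠ r) ∧ (s ≠ w ∧ s ≠ u ∧ s ≠ r) ∧ (w ≠ u ∧ w ≠ r) ∧ u ≠ r := by
  have := h.nd
  simp only [List.nodup_cons, List.mem_cons, List.not_mem_nil, or_false, not_or, List.nodup_nil,
    not_false_eq_true, and_true] at this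
  tauto

/-- The primes of a degree. -/
theorem Hex.cases (h : Hex G p q s w u r) {e x : ℕ} (he : e ∈ Cfsg.charDegrees G) (hx : x.Prime)
    (hxe : x ∣ e) : x = p ∨ x = q ∨ x = s ∨ x = w ∨ x = u ∨ x = r :=
  h.all x hx ⟨e, he, hxe⟩

/-! ### The first configuration -/

theorem t1 (hSL : FactSL.{u, u}) (hN : FactNum) [Finite G] (hG : Group.IsSolvable G)
    {M : Subgroup G} [M.Normal] {H : Subgroup G} (hex : Hex G p q s w u r) (h : T1 G M H p) :
    False := by
  obtain ⟨l, n, hl, hlp, hn, hcard⟩ := h.card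
  haveI := finite_LC hl hcard
  haveI := nontrivial_LC hl hn hcard
  haveI hH : Group.IsSolvable H := inferInstance
  haveI : Fact q.Prime := ⟨hex.pq⟩
  haveI : Fact r.Prime := ⟨hex.pr⟩
  haveI : Fact w.Prime := ⟨hex.pw⟩
  obtain ⟨hne1, hne2, hne3, hne4, hne5⟩ := hex.ne
  have hbot : (⊥ : AddSubgroup (LC M)) ≠ ⊤ := bot_ne_top
  -- `q`, `r`
  have hD : ∀ z : ℕ, NA p z G → ∀ e ∈ Cfsg.charDegrees G, p ∣ e → z ∣ e → False :=
    fun z h1 e he h2 h3 => h1 e he h2 h3
  have huq : UF q H (⊥ : AddSubgroup (LC M)) := uf_of_cfg hH h.cfg (hD q hex.apq)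
  have hur : UF r H (⊥ : AddSubgroup (LC M)) := uf_of_cfg hH h.cfg (hD r (NA.symm hex.arp))
  have hnq : ∀ Q : Sylow q H, ¬ Triv (LC M) (Q : Subgroup H) := fun Q hQ =>
    h.nt q hex.pq hex.rq Q (huq.normal_of_triv hbot hQ)
      (comm_of_cfg hH h.cfg (hD q hex.apq) inferInstance Q) hQ
  have hnr : ∀ Q : Sylow r H, ¬ Triv (LC M) (Q : Subgroup H) := fun Q hQ =>
    h.nt r hex.pr hex.rr Q (hur.normal_of_triv hbot hQ)
      (comm_of_cfg hH h.cfg (hD r (NA.symm hex.arp)) inferInstance Q) hQ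
  obtain ⟨Q⟩ : Nonempty (Sylow q H) := inferInstance
  obtain ⟨R⟩ : Nonempty (Sylow r H) := inferInstance
  obtain ⟨C, hC⟩ : ∃ C : Subgroup H, SLD H (LC M) C l n := by
    by_cases hql : q = l
    · exact hSL H (LC M) l n r hH hl hn hcard h.irr hex.pr (fun e => hne2.2.2.2 (hql.trans e.symm))
        hur ⟨R, hnr R⟩
    · exact hSL H (LC M) l n q hH hl hn hcard h.irr hex.pq hql huq ⟨Q, hnq Q⟩
  obtain ⟨hqC, hqc, -⟩ := uf_card hl hn hC huq Q (hnq Q)
  obtain ⟨hrC, hrc, -⟩ := uf_card hl hn hC hur R (hnr R)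
  have hCd : C.index ∈ Cfsg.charDegrees G := h.cd hC.deg
  -- a nonzero vector
  obtain ⟨v, hv⟩ := exists_ne (0 : LC M)
  have h3 := three_le' hN hl hn hC hne2.2.2.2 huq Q (hnq Q) hur R (hnr R)
  -- all primes of `c` divide one degree together with `p`
  obtain ⟨e, he, he1, he2⟩ := h.cfg v hv 1 H681.DegBasic.one_mem
  rw [mul_one] at he1
  have hce : (Ker H (LC M)).relIndex C ∣ e := (hC.stab v hv).trans he1
  have hwc : ¬ w ∣ (Ker H (LC M)).relIndex C := by
    intro hwc
    have : ((Ker H (LC M)).relIndex C).primeFactors.card ≤ 2 := by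
      refine card_le_two (a := p) (b := w) fun x hx hxc => ?_
      rcases hex.cases he hx (hxc.trans hce) with h1 | h1 | h1 | h1 | h1 | h1
      · exact Or.inl h1
      · exact absurd (h1 ▸ hxc) hqc
      · exact (hex.asw e he (h1 ▸ hxc.trans hce) (hwc.trans hce)).elim
      · exact Or.inr h1
      · exact (hex.awu e he (hwc.trans hce) (h1 ▸ hxc.trans hce)).elim
      · exact absurd (h1 ▸ hxc) hrc
    omega
  have hsc : s ∣ (Ker H (LC M)).relIndex C := by
    by_contra hsc
    have : ((Ker H (LC M)).relIndex C).primeFactors.card ≤ 2 := by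
      refine card_le_two (a := p) (b := u) fun x hx hxc => ?_
      rcases hex.cases he hx (hxc.trans hce) with h1 | h1 | h1 | h1 | h1 | h1
      · exact Or.inl h1
      · exact absurd (h1 ▸ hxc) hqc
      · exact absurd (h1 ▸ hxc) hsc
      · exact absurd (h1 ▸ hxc) hwc
      · exact Or.inr h1
      · exact absurd (h1 ▸ hxc) hrc
    omega
  -- `w ∣ |H : C|`
  have hwC : w ∣ C.index := by
    by_contra hwC
    have hwi : ¬ w ∣ (Ker H (LC M)).index := by
      intro h1
      rcases prime_dvd_index hC hex.pw h1 with h2 | h2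
      · exact hwc h2
      · exact hwC h2
    obtain ⟨W⟩ : Nonempty (Sylow w H) := inferInstance
    obtain ⟨h5, h6, h7⟩ := normal_sylow hH (Ker H (LC M)) hwi (by
      intro d hd hwd
      have hle : Ker H (LC M) ≤ MulAction.stabilizer H v := fun x hx => hx v
      obtain ⟨f, hf, hdf⟩ := deg_le hle hd
      obtain ⟨e, he, he1, he2⟩ := h.cfg v hv f hf
      exact hex.asw e he ((hsc.trans (hC.stab v hv)).trans ((Dvd.intro _ rfl).trans he1))
        ((hwd.trans hdf).trans ((Dvd.intro_left _ rfl).trans he1))) W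
    exact h.nt w hex.pw hex.rw W h6 h7 h5
  -- four primes
  have h4 := num_dvd hN hl hn hC hne2.2.2.2 huq Q (hnq Q) hur R (hnr R) {q, r, w} (by simp)
    (by simp) (by
      intro x hx
      simp only [Finset.mem_insert, Finset.mem_singleton] at hx
      rcases hx with rfl | rfl | rfl
      · exact ⟨hex.pq, hqC.trans hC.dvd⟩
      · exact ⟨hex.pr, hrC.trans hC.dvd⟩
      · exact ⟨hex.pw, hwC.trans hC.dvd⟩)
  have h5 : ({q, r, w} : Finset ℕ).card = 3 := by
    rw [Finset.card_eq_three]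
    exact ⟨q, r, w, hne2.2.2.2, hne2.2.1, hne4.2.symm, rfl⟩
  have h6 : ((Ker H (LC M)).relIndex C).primeFactors.card ≤ 3 := by
    refine card_le_three (a := p) (b := s) (d := u) fun x hx hxc => ?_
    rcases hex.cases he hx (hxc.trans hce) with h1 | h1 | h1 | h1 | h1 | h1
    · exact Or.inl h1
    · exact absurd (h1 ▸ hxc) hqc
    · exact Or.inr (Or.inl h1)
    · exact absurd (h1 ▸ hxc) hwc
    · exact Or.inr (Or.inr h1)
    · exact absurd (h1 ▸ hxc) hrc
  omega

/-! ### The second configuration -/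

section T2

variable [Finite G] {M P H : Subgroup G} [hM : M.Normal] [hP : P.Normal]

/-- `Q` and `R` nontrivial on `V`. -/
theorem t2a (hSL : FactSL.{u, u}) (hN : FactNum) (hG : Group.IsSolvable G)
    (hex : Hex G p q s w u r) (h : T2 G M P H p)
    [hq : Fact q.Prime] [hr : Fact r.Prime]
    (Q : Sylow q H) (hQ : ¬ Triv (LC M) (Q : Subgroup H))
    (R : Sylow r H) (hR : ¬ Triv (LC M) (R : Subgroup H)) : False := by
  obtain ⟨n, hn, hcard⟩ := h.card
  haveI := finite_LC hex.pp hcard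
  haveI := nontrivial_LC hex.pp hn hcard
  haveI hH : Group.IsSolvable H := inferInstance
  obtain ⟨hne1, hne2, hne3, hne4, hne5⟩ := hex.ne
  have hD : ∀ z : ℕ, NA p z G → ∀ e ∈ Cfsg.charDegrees G, p ∣ e → z ∣ e → False :=
    fun z h1 e he h2 h3 => h1 e he h2 h3
  have huq : UF q H (⊥ : AddSubgroup (LC M)) := uf_of_cfg hH h.cfgV (hD q hex.apq)
  have hur : UF r H (⊥ : AddSubgroup (LC M)) := uf_of_cfg hH h.cfgV (hD r (NA.symm hex.arp))
  obtain ⟨C, hC⟩ := hSL H (LC M) p n q hH hex.pp hn hcard h.irr hex.pq hne1.1.symm huq ⟨Q, hQ⟩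
  obtain ⟨hqC, hqc, -⟩ := uf_card hex.pp hn hC huq Q hQ
  obtain ⟨hrC, hrc, -⟩ := uf_card hex.pp hn hC hur R hR
  obtain ⟨v, hv⟩ := exists_ne (0 : LC M)
  have h3 := three_le' hN hex.pp hn hC hne2.2.2.2 huq Q hQ hur R hR
  obtain ⟨e, he, he1, he2⟩ := h.cfgV v hv 1 H681.DegBasic.one_mem
  rw [mul_one] at he1
  have hce : (Ker H (LC M)).relIndex C ∣ e := (hC.stab v hv).trans he1
  have hpc : ¬ p ∣ (Ker H (LC M)).relIndex C := fun h1 =>
    h.ndvd ((h1.trans (hC.stab v hv)).trans (Subgroup.index_dvd_card _))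
  by_cases hwc : w ∣ (Ker H (LC M)).relIndex C
  · have : ((Ker H (LC M)).relIndex C).primeFactors.card ≤ 2 := by
      refine card_le_two (a := w) (b := w) fun x hx hxc => ?_
      rcases hex.cases he hx (hxc.trans hce) with h1 | h1 | h1 | h1 | h1 | h1
      · exact absurd (h1 ▸ hxc) hpc
      · exact absurd (h1 ▸ hxc) hqc
      · exact (hex.asw e he (h1 ▸ hxc.trans hce) (hwc.trans hce)).elim
      · exact Or.inr h1
      · exact (hex.awu e he (hwc.trans hce) (h1 ▸ hxc.trans hce)).elim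
      · exact absurd (h1 ▸ hxc) hrc
    omega
  · have : ((Ker H (LC M)).relIndex C).primeFactors.card ≤ 2 := by
      refine card_le_two (a := s) (b := u) fun x hx hxc => ?_
      rcases hex.cases he hx (hxc.trans hce) with h1 | h1 | h1 | h1 | h1 | h1
      · exact absurd (h1 ▸ hxc) hpc
      · exact absurd (h1 ▸ hxc) hqc
      · exact Or.inl h1
      · exact absurd (h1 ▸ hxc) hwc
      · exact Or.inr h1
      · exact absurd (h1 ▸ hxc) hrc
    omega

/-- `|H : K(V)|` is prime to `z` if the Sylow `z`-subgroups are trivial on `V`. -/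
theorem not_dvd_of_triv {H : Type u} {V : Type v} [Group H] [AddCommGroup V] [DistribMulAction H V]
    [Finite H] {z : ℕ} [hz : Fact z.Prime] {Z : Sylow z H} (h : Triv V (Z : Subgroup H)) :
    ¬ z ∣ (Ker H V).index := not_dvd_of_sylow_le (Z := Z) h

/-- `Q` trivial, `R` nontrivial on `V`. -/
theorem t2b (hSL : FactSL.{u, u}) (hN1 : ∀ p n m k s r : ℕ, p.Prime → s.Prime → r.Prime → s ≠ p →
      r ≠ s → 0 < n → n = m * s ^ k → 0 < k → r ∣ n → (p ^ n - 1) / (p ^ m - 1) ≡ 1 [MOD s] →
      2 ≤ ((p ^ n - 1) / (p ^ m - 1)).primeFactors.card) (hG : Group.IsSolvable G)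
    (hex : Hex G p q s w u r) (h : T2 G M P H p)
    [hq : Fact q.Prime] [hr : Fact r.Prime]
    (Q : Sylow q H) (hQ : Triv (LC M) (Q : Subgroup H))
    (R : Sylow r H) (hR : ¬ Triv (LC M) (R : Subgroup H)) : False := by
  obtain ⟨n0, hn0, hcard0⟩ := h.card
  obtain ⟨N, hcardW⟩ := h.cardW
  haveI := finite_LC hex.pp hcard0
  haveI := nontrivial_LC hex.pp hn0 hcard0
  haveI := finite_LC hex.pp hcardW
  haveI hH : Group.IsSolvable H := inferInstance
  haveI : Fact s.Prime := ⟨hex.ps⟩
  haveI : Fact w.Prime := ⟨hex.pw⟩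
  haveI : Fact u.Prime := ⟨hex.pu⟩
  obtain ⟨hne1, hne2, hne3, hne4, hne5⟩ := hex.ne
  have hbot : (⊥ : AddSubgroup (LC M)) ≠ ⊤ := bot_ne_top
  have hD : ∀ z : ℕ, NA p z G → ∀ e ∈ Cfsg.charDegrees G, p ∣ e → z ∣ e → False :=
    fun z h1 e he h2 h3 => h1 e he h2 h3
  have huq : UF q H (⊥ : AddSubgroup (LC M)) := uf_of_cfg hH h.cfgV (hD q hex.apq)
  have hur : UF r H (⊥ : AddSubgroup (LC M)) := uf_of_cfg hH h.cfgV (hD r (NA.symm hex.arp))
  have hQn : (Q : Subgroup H).Normal := huq.normal_of_triv hbot hQ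
  have hQW : ¬ Triv (LC P) (Q : Subgroup H) := fun h1 =>
    h.nt q hex.pq hne1.1.symm hex.rq Q hQn (comm_of_cfg hH h.cfgV (hD q hex.apq) inferInstance Q) h1
  obtain ⟨-, hS2, huS, C, n, hn, hC⟩ := factB hSL hG h hex.pp hne1.1.symm hne1.2.1.symm hex.rs
    hex.aqs Q hQn hQW
  have hcom : com (LC P) (Q : Subgroup H) ≠ ⊥ := fun e => hQW (com_eq_bot_iff.1 e)
  haveI hWn : Nontrivial (PSub (inv_com (V := LC P) (Q : Subgroup H) hQn)) := sub_nontrivial _ hcom
  have hK := ker_le h hne1.1.symm hex.apq Q hQn hQ hQW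
  obtain ⟨S⟩ : Nonempty (Sylow s H) := inferInstance
  obtain ⟨hsC, hsc, hsd, k, m, hk, hnm, hsd', hmod⟩ := uf_card hex.pp hn hC huS S (hS2 S)
  have hrC : r ∣ C.index := by
    by_contra hrC
    exact hR (hC.triv hrC hK hur R)
  have hCd : C.index ∈ Cfsg.charDegrees G := h.cd hC.deg
  -- degrees over a nonzero vector of `W_q`
  obtain ⟨v, hv⟩ := exists_ne (0 : PSub (inv_com (V := LC P) (Q : Subgroup H) hQn))
  have hcfg := cfg_sub (inv_com (V := LC P) (Q : Subgroup H) hQn) h.cfgW
  have hcop := coprime_LC h hex.pp hne1.1.symm Q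
  have hqv : ∀ v : PSub (inv_com (V := LC P) (Q : Subgroup H) hQn), v ≠ 0 →
      q ∣ (MulAction.stabilizer H v).index := by
    intro v hv
    by_contra hcon
    have h1 := le_of_not_dvd Q hQn _ hcon
    have h2 : v.val ∈ com (LC P) (Q : Subgroup H) ⊓ fixed (LC P) (Q : Subgroup H) :=
      ⟨v.mem, fun x hx => congrArg Sub.val (h1 hx)⟩
    rw [fixed_inf_com (V := LC P) (Q : Subgroup H) hcop, AddSubgroup.mem_bot] at h2
    exact hv (Sub.ext h2)
  set K := Ker H (PSub (inv_com (V := LC P) (Q : Subgroup H) hQn)) with hKdef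
  -- `u` does not divide `c`
  have huc : ¬ u ∣ K.relIndex C := by
    intro huc
    have hur' : UF r H (⊥ : AddSubgroup (PSub (inv_com (V := LC P) (Q : Subgroup H) hQn))) := by
      refine uf_of_stab fun v hv => ?_
      have h1 := stab_of_cfg hH hcfg (z := r) u (fun e he _ h2 h3 => hex.aur e he h2 h3) (v := v) hv
        (huc.trans (hC.stab v hv))
      exact ⟨h1.1, fun Q => (h1.2 Q).1⟩
    exact hR (triv_of_uf h hex.pp hne1.1.symm hex.apq Q hQn hQ hQW hur hur' R)
  have huC : ¬ u ∣ C.index := fun h1 => hex.aur _ hCd h1 hrC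
  have hui : ¬ u ∣ K.index := by
    intro h1
    rcases prime_dvd_index hC hex.pu h1 with h2 | h2
    · exact huc h2
    · exact huC h2
  obtain ⟨U⟩ : Nonempty (Sylow u H) := inferInstance
  obtain ⟨h5, h6, h7⟩ := normal_sylow hH K hui (by
    intro d hd hud
    have hle : K ≤ MulAction.stabilizer H v := fun x hx => hx v
    obtain ⟨f, hf, hdf⟩ := deg_le hle hd
    obtain ⟨e, he, he1, he2⟩ := hcfg v hv f hf
    have hue : u ∣ e := (hud.trans hdf).trans ((Dvd.intro_left _ rfl).trans he1)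
    have hce : K.relIndex C ∣ e := (hC.stab v hv).trans ((Dvd.intro _ rfl).trans he1)
    have hqe : q ∣ e := (hqv v hv).trans ((Dvd.intro _ rfl).trans he1)
    have h1 := hN1 p n m k s r hex.pp hex.ps hex.pr hne1.2.1.symm hne3.2.2.symm hn hnm hk
      (hrC.trans hC.dvd) hmod
    rw [hsd'] at h1
    have h2 : (Nat.card (Sylow s H)).primeFactors.card ≤ 1 := by
      refine (Finset.card_le_card (t := {q}) ?_).trans (by simp)
      intro x hx
      have hxp := Nat.prime_of_mem_primeFactors hx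
      have hxc := (Nat.dvd_of_mem_primeFactors hx).trans hsd
      rw [Finset.mem_singleton]
      rcases hex.cases he hxp (hxc.trans hce) with h1 | h1 | h1 | h1 | h1 | h1
      · exact (hex.apq e he (h1 ▸ hxc.trans hce) hqe).elim
      · exact h1
      · exact (hex.aqs e he hqe (h1 ▸ hxc.trans hce)).elim
      · exact (hex.awu e he (h1 ▸ hxc.trans hce) hue).elim
      · exact absurd (h1 ▸ hxc) huc
      · exact (hex.aur e he hue (h1 ▸ hxc.trans hce)).elim
    omega) U
  -- `U` is nontrivial on `W`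
  have hUW : ¬ Triv (LC P) (U : Subgroup H) := fun h1 =>
    h.nt u hex.pu hne1.2.2.2.1.symm hex.ru U h6 h7 h1
  obtain ⟨hR1, -⟩ := factB hSL hG h hex.pp (y := u) (z := r) hne1.2.2.2.1.symm hne1.2.2.2.2.symm
    hex.rr hex.aur U h6 hUW
  apply hR
  intro x hx
  refine (hK ?_ : x ∈ Ker H (LC M))
  intro y
  apply Sub.ext
  refine hR1 R x hx y.val ?_
  intro t ht
  exact congrArg Sub.val (h5 ht y)

/-- `Q` and `R` trivial on `V`. -/
theorem t2c (hSL : FactSL.{u, u}) (hN : FactNum) (hG : Group.IsSolvable G)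
    (hex : Hex G p q s w u r) (h : T2 G M P H p)
    [hq : Fact q.Prime] [hr : Fact r.Prime]
    (Q : Sylow q H) (hQ : Triv (LC M) (Q : Subgroup H))
    (R : Sylow r H) (hR : Triv (LC M) (R : Subgroup H)) : False := by
  obtain ⟨n0, hn0, hcard0⟩ := h.card
  obtain ⟨N, hcardW⟩ := h.cardW
  haveI := finite_LC hex.pp hcard0
  haveI := nontrivial_LC hex.pp hn0 hcard0
  haveI := finite_LC hex.pp hcardW
  haveI hH : Group.IsSolvable H := inferInstance
  haveI : Fact s.Prime := ⟨hex.ps⟩
  haveI : Fact w.Prime := ⟨hex.pw⟩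
  haveI : Fact u.Prime := ⟨hex.pu⟩
  obtain ⟨hne1, hne2, hne3, hne4, hne5⟩ := hex.ne
  have hbot : (⊥ : AddSubgroup (LC M)) ≠ ⊤ := bot_ne_top
  have hD : ∀ z : ℕ, NA p z G → ∀ e ∈ Cfsg.charDegrees G, p ∣ e → z ∣ e → False :=
    fun z h1 e he h2 h3 => h1 e he h2 h3
  have huq : UF q H (⊥ : AddSubgroup (LC M)) := uf_of_cfg hH h.cfgV (hD q hex.apq)
  have hur : UF r H (⊥ : AddSubgroup (LC M)) := uf_of_cfg hH h.cfgV (hD r (NA.symm hex.arp))
  have hQn : (Q : Subgroup H).Normal := huq.normal_of_triv hbot hQ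
  have hRn : (R : Subgroup H).Normal := hur.normal_of_triv hbot hR
  have hQW : ¬ Triv (LC P) (Q : Subgroup H) := fun h1 =>
    h.nt q hex.pq hne1.1.symm hex.rq Q hQn (comm_of_cfg hH h.cfgV (hD q hex.apq) inferInstance Q) h1
  have hRW : ¬ Triv (LC P) (R : Subgroup H) := fun h1 =>
    h.nt r hex.pr hne1.2.2.2.2.symm hex.rr R hRn
      (comm_of_cfg hH h.cfgV (hD r (NA.symm hex.arp)) inferInstance R) h1
  obtain ⟨hS1, hS2, huS, C, n, hn, hC⟩ := factB hSL hG h hex.pp hne1.1.symm hne1.2.1.symm hex.rs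
    hex.aqs Q hQn hQW
  obtain ⟨hU1, hU2, huU, C', n', hn', hC'⟩ := factB hSL hG h hex.pp hne1.2.2.2.2.symm
    hne1.2.2.2.1.symm hex.ru (NA.symm hex.aur) R hRn hRW
  have hKq := ker_le h hne1.1.symm hex.apq Q hQn hQ hQW
  have hKr := ker_le h hne1.2.2.2.2.symm (NA.symm hex.arp) R hRn hR hRW
  have hcomq : com (LC P) (Q : Subgroup H) ≠ ⊥ := fun e => hQW (com_eq_bot_iff.1 e)
  have hcomr : com (LC P) (R : Subgroup H) ≠ ⊥ := fun e => hRW (com_eq_bot_iff.1 e)
  haveI hWn : Nontrivial (PSub (inv_com (V := LC P) (Q : Subgroup H) hQn)) := sub_nontrivial _ hcomq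
  obtain ⟨S⟩ : Nonempty (Sylow s H) := inferInstance
  obtain ⟨U⟩ : Nonempty (Sylow u H) := inferInstance
  obtain ⟨hsC, hsc, hsd, -⟩ := uf_card hex.pp hn hC huS S (hS2 S)
  have hirrq := huS.irr hex.pp hC.card (hS2 S)
  have hirrr := huU.irr hex.pp hC'.card (hU2 U)
  have hCd : C.index ∈ Cfsg.charDegrees G := h.cd hC.deg
  have hwC : ¬ w ∣ C.index := fun h1 => hex.asw _ hCd hsC h1
  -- degrees over a nonzero vector of `W_q`
  obtain ⟨v, hv⟩ := exists_ne (0 : PSub (inv_com (V := LC P) (Q : Subgroup H) hQn))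
  have hcfg := cfg_sub (inv_com (V := LC P) (Q : Subgroup H) hQn) h.cfgW
  have hcop := coprime_LC h hex.pp hne1.1.symm Q
  have hcopr := coprime_LC h hex.pp hne1.2.2.2.2.symm R
  have hqv : q ∣ (MulAction.stabilizer H v).index := by
    by_contra hcon
    have h1 := le_of_not_dvd Q hQn _ hcon
    have h2 : v.val ∈ com (LC P) (Q : Subgroup H) ⊓ fixed (LC P) (Q : Subgroup H) :=
      ⟨v.mem, fun x hx => congrArg Sub.val (h1 hx)⟩
    rw [fixed_inf_com (V := LC P) (Q : Subgroup H) hcop, AddSubgroup.mem_bot] at h2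
    exact hv (Sub.ext h2)
  obtain ⟨e, he, he1, -⟩ := hcfg v hv 1 H681.DegBasic.one_mem
  rw [mul_one] at he1
  set K := Ker H (PSub (inv_com (V := LC P) (Q : Subgroup H) hQn)) with hKdef
  have hce : K.relIndex C ∣ e := (hC.stab v hv).trans he1
  have hpK : ∀ x : ℕ, x ∣ K.relIndex C → x ∣ Nat.card H := fun x hx =>
    (hx.trans (hC.stab v hv)).trans (Subgroup.index_dvd_card _)
  have hqV : ¬ q ∣ (Ker H (LC M)).index := not_dvd_of_triv hQ
  have hrV : ¬ r ∣ (Ker H (LC M)).index := not_dvd_of_triv hR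
  have hnot : ¬ C ≤ Ker H (LC M) := fun hCV =>
    no_ker h hex.pp hne1.1.symm hne1.2.1.symm hex.apq Q hQn hQ hQW hn hC huS S (hS2 S) hCV
  -- the intersection of `W_q` and `W_r`
  have hinter : com (LC P) (Q : Subgroup H) = com (LC P) (R : Subgroup H) ∨
      com (LC P) (Q : Subgroup H) ⊓ com (LC P) (R : Subgroup H) = ⊥ := by
    have hI : Inv H (com (LC P) (Q : Subgroup H) ⊓ com (LC P) (R : Subgroup H)) := fun g y hy =>
      ⟨inv_com _ hQn g y hy.1, inv_com _ hRn g y hy.2⟩
    rcases irr_sub hirrq inf_le_left hI with h1 | h1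
    · exact Or.inr h1
    · rcases irr_sub hirrr inf_le_right hI with h2 | h2
      · exact Or.inr h2
      · exact Or.inl (h1.symm.trans h2)
  -- if `w` divides `|H : K(V)|`, then `S` and `U` have the unique fixing property on `V`
  have hfreew : ∀ z : ℕ, z.Prime → NA w z G → w ∣ (Ker H (LC M)).index →
      UF z H (⊥ : AddSubgroup (LC M)) := by
    intro z hz hwz hwV
    haveI : Fact z.Prime := ⟨hz⟩
    refine uf_of_stab fun v hv => ?_
    have h1 := stab_of_cfg hH h.cfgV (z := z) w (fun e he _ h2 h3 => hwz e he h2 h3) (v := v) hv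
      (dvd_stab hC hKq h.irr hwC hwV (fun h0 => hv (by simpa using h0)))
    exact ⟨h1.1, fun Q => (h1.2 Q).1⟩
  rcases hinter with heq | hinf
  · -- `W_q = W_r`
    have hU2' : ∀ hI : Inv H (com (LC P) (R : Subgroup H)), ¬ Triv (PSub hI) (U : Subgroup H) :=
      fun hI => hU2 U
    have huU' : ∀ hI : Inv H (com (LC P) (R : Subgroup H)), UF u H (⊥ : AddSubgroup (PSub hI)) :=
      fun hI => huU
    rw [← heq] at hU2' huU'
    have hU3 := hU2' (inv_com _ hQn)
    have huU3 := huU' (inv_com _ hQn)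
    obtain ⟨huC, huc, hud, -⟩ := uf_card hex.pp hn hC huU3 U hU3
    have hrv : r ∣ (MulAction.stabilizer H v).index := by
      by_contra hcon
      have h1 := le_of_not_dvd R hRn _ hcon
      have h2 : v.val ∈ com (LC P) (R : Subgroup H) ⊓ fixed (LC P) (R : Subgroup H) :=
        ⟨heq ▸ v.mem, fun x hx => congrArg Sub.val (h1 hx)⟩
      rw [fixed_inf_com (V := LC P) (R : Subgroup H) hcopr, AddSubgroup.mem_bot] at h2
      exact hv (Sub.ext h2)
    have hcases : ∀ x : ℕ, x.Prime → x ∣ K.relIndex C → x = q ∨ x = r ∨ x = w := by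
      intro x hx hxc
      rcases hex.cases he hx (hxc.trans hce) with h1 | h1 | h1 | h1 | h1 | h1
      · exact absurd (h1 ▸ hpK x hxc) h.ndvd
      · exact Or.inl h1
      · exact absurd (h1 ▸ hxc) hsc
      · exact Or.inr (Or.inr h1)
      · exact absurd (h1 ▸ hxc) huc
      · exact Or.inr (Or.inl h1)
    by_cases hwV : w ∣ (Ker H (LC M)).index
    · have huSV := hfreew s hex.ps (NA.symm hex.asw) hwV
      have huUV := hfreew u hex.pu hex.awu hwV
      have hSV := triv_of_uf h hex.pp hne1.1.symm hex.apq Q hQn hQ hQW huSV huS S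
      have hUV := triv_of_uf h hex.pp hne1.1.symm hex.apq Q hQn hQ hQW huUV huU3 U
      have h1 := not_dvd_card hex.pp hn hC hKq hne3.1.symm hwC hwV huS S (hS2 S) hSV
      have h2 := not_dvd_card hex.pp hn hC hKq hne4.1 hwC hwV huU3 U hU3 hUV
      have h3 := three_le hN hex.pp hn hC hne3.2.1 huS S (hS2 S) huU3 U hU3
      have h4 : (Nat.card (Sylow s H) * Nat.card (Sylow u H)).primeFactors.card ≤ 2 := by
        refine card_le_two (a := q) (b := r) fun x hx hxd => ?_
        rcases hx.dvd_mul.1 hxd with h5 | h5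
        · rcases hcases x hx (h5.trans hsd) with h6 | h6 | h6
          · exact Or.inl h6
          · exact Or.inr h6
          · exact absurd (h6 ▸ h5) h1
        · rcases hcases x hx (h5.trans hud) with h6 | h6 | h6
          · exact Or.inl h6
          · exact Or.inr h6
          · exact absurd (h6 ▸ h5) h2
      omega
    · apply hnot
      refine le_ker hC hKq fun x hx hxc hxV => ?_
      rcases hcases x hx hxc with rfl | rfl | rfl
      · exact hqV hxV
      · exact hrV hxV
      · exact hwV hxV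
  · -- `W_q ⊓ W_r = ⊥`
    have hQr : ∀ x ∈ (Q : Subgroup H), ∀ v ∈ com (LC P) (R : Subgroup H), x • v = v := by
      intro x hx v hv
      have h1 : x • v - v ∈ com (LC P) (Q : Subgroup H) ⊓ com (LC P) (R : Subgroup H) :=
        AddSubgroup.mem_inf.2 ⟨AddSubgroup.subset_closure ⟨x, hx, v, rfl⟩,
          sub_mem (inv_com _ hRn x v hv) hv⟩
      rw [hinf, AddSubgroup.mem_bot] at h1
      exact sub_eq_zero.1 h1
    have hRq : ∀ x ∈ (R : Subgroup H), ∀ v ∈ com (LC P) (Q : Subgroup H), x • v = v := by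
      intro x hx v hv
      have h1 : x • v - v ∈ com (LC P) (Q : Subgroup H) ⊓ com (LC P) (R : Subgroup H) :=
        AddSubgroup.mem_inf.2 ⟨sub_mem (inv_com _ hQn x v hv) hv,
          AddSubgroup.subset_closure ⟨x, hx, v, rfl⟩⟩
      rw [hinf, AddSubgroup.mem_bot] at h1
      exact sub_eq_zero.1 h1
    -- `S` trivial on `W_r`, so on `V`
    have hSV : Triv (LC M) (S : Subgroup H) := by
      intro x hx
      refine (hKr ?_ : x ∈ Ker H (LC M))
      intro y
      apply Sub.ext
      exact hS1 S x hx y.val (fun t ht => hQr t ht y.val y.mem)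
    -- `U`, `R` trivial on `W_q`
    have hUK : (U : Subgroup H) ≤ K := by
      intro x hx y
      apply Sub.ext
      exact hU1 U x hx y.val (fun t ht => hRq t ht y.val y.mem)
    have hRK : (R : Subgroup H) ≤ K := by
      intro x hx y
      apply Sub.ext
      exact hRq x hx y.val y.mem
    have huK : ¬ u ∣ K.index := not_dvd_of_sylow_le hUK
    have hrK : ¬ r ∣ K.index := not_dvd_of_sylow_le hRK
    have hci : K.relIndex C ∣ K.index := by
      rw [index_eq hC]
      exact Dvd.intro _ rfl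
    have hcases : ∀ x : ℕ, x.Prime → x ∣ K.relIndex C → x = q ∨ x = w := by
      intro x hx hxc
      rcases hex.cases he hx (hxc.trans hce) with h1 | h1 | h1 | h1 | h1 | h1
      · exact absurd (h1 ▸ hpK x hxc) h.ndvd
      · exact Or.inl h1
      · exact absurd (h1 ▸ hxc) hsc
      · exact Or.inr h1
      · exact absurd (h1 ▸ hxc.trans hci) huK
      · exact absurd (h1 ▸ hxc.trans hci) hrK
    by_cases hwV : w ∣ (Ker H (LC M)).index
    · have huSV := hfreew s hex.ps (NA.symm hex.asw) hwV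
      have hSn := huSV.normal_of_triv hbot hSV
      apply huS.card_ne_one (hS2 S)
      have : Subsingleton (Sylow s H) := (Sylow.unique_of_normal S hSn).instSubsingleton
      exact Nat.card_eq_one_iff_unique.2 ⟨this, ⟨S⟩⟩
    · apply hnot
      refine le_ker hC hKq fun x hx hxc hxV => ?_
      rcases hcases x hx hxc with rfl | rfl
      · exact hqV hxV
      · exact hwV hxV

end T2

/-! ### The main theorem -/

/-- Six primes, cyclically not adjacent, are not the degree primes of a solvable group. -/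
def NoPrism : Prop := ∀ (G : Type u) [Group G] [Finite G], Group.IsSolvable G →
  ∀ a : Fin 6 → ℕ, Function.Injective a → (∀ p : ℕ, (∃ i, a i = p) ↔ p.Prime ∧ Rho p G) →
    (∀ i, NA (a i) (a (i + 1)) G) → False

/-- Two prime divisors. -/
def FactNum1 : Prop := ∀ p n m k s r : ℕ, p.Prime → s.Prime → r.Prime → s ≠ p → r ≠ s → 0 < n →
  n = m * s ^ k → 0 < k → r ∣ n → (p ^ n - 1) / (p ^ m - 1) ≡ 1 [MOD s] →
    2 ≤ ((p ^ n - 1) / (p ^ m - 1)).primeFactors.card

theorem exists_minN (G : Type u) [Group G] [Finite G] [Nontrivial G] : ∃ M : Subgroup G, MinN M := by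
  obtain ⟨M, hM⟩ := (Set.toFinite {N : Subgroup G | N ≠ ⊥ ∧ N.Normal}).exists_minimal
    ⟨⊤, top_ne_bot, inferInstance⟩
  refine ⟨M, hM.prop.1, hM.prop.2, fun N hN hNM => ?_⟩
  by_contra hcon
  push Not at hcon
  exact hcon.2 (le_antisymm hNM (hM.le_of_le ⟨hcon.1, hN⟩ hNM))

theorem step (hSL : FactSL.{u, u}) (hN : FactNum) (h1 : FactT1.{u}) (hpre : FactT2pre.{u})
    (ha : FactT2a.{u}) (hb : FactT2b.{u}) (hN1 : FactNum1) (G : Type u) [Group G] [Finite G]
    (hG : Group.IsSolvable G) (M : Subgroup G) [hMn : M.Normal] (hM : MinN M) {p q s w u r : ℕ}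
    (hex : Hex G p q s w u r) (hp : ¬ Rho p (G ⧸ M)) : False := by
  by_cases hMp : IsPGroup p M
  · obtain ⟨P, H, hPH⟩ := hpre G hG M p hex.pp hM hex.rp hp hMp
    haveI : P.Normal := hPH.nrm
    have h := T2.of hG hPH ha hb
    haveI : Fact q.Prime := ⟨hex.pq⟩
    haveI : Fact r.Prime := ⟨hex.pr⟩
    obtain ⟨Q⟩ : Nonempty (Sylow q H) := inferInstance
    obtain ⟨R⟩ : Nonempty (Sylow r H) := inferInstance
    by_cases hQ : Triv (LC M) (Q : Subgroup H)
    · by_cases hR : Triv (LC M) (R : Subgroup H)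
      · exact t2c hSL hN hG hex h Q hQ R hR
      · exact t2b hSL hN1 hG hex h Q hQ R hR
    · by_cases hR : Triv (LC M) (R : Subgroup H)
      · exact t2b hSL hN1 hG hex.rev h R hR Q hQ
      · exact t2a hSL hN hG hex h Q hQ R hR
  · obtain ⟨H, h⟩ := h1 G hG M p hex.pp hM hex.rp hp hMp
    exact t1 hSL hN hG hex h

theorem noPrism (hSL : FactSL.{u, u}) (hN : FactNum) (h1 : FactT1.{u}) (hpre : FactT2pre.{u})
    (ha : FactT2a.{u}) (hb : FactT2b.{u}) (hN1 : FactNum1) : NoPrism.{u} := by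
  suffices H : ∀ (k : ℕ) (G : Type u) [Group G] [Finite G], Nat.card G = k → Group.IsSolvable G →
      ∀ a : Fin 6 → ℕ, Function.Injective a → (∀ p : ℕ, (∃ i, a i = p) ↔ p.Prime ∧ Rho p G) →
        (∀ i, NA (a i) (a (i + 1)) G) → False from
    fun G _ _ hG a => H _ G rfl hG a
  intro k
  induction k using Nat.strong_induction_on with
  | _ k ih =>
    intro G _ _ hk hG a hinj hall hna
    haveI : Nontrivial G := by
      by_contra hcon
      rw [not_nontrivial_iff_subsingleton] at hcon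
      obtain ⟨hp, e, he, hpe⟩ := (hall (a 0)).1 ⟨0, rfl⟩
      have h2 := H681.DegBasic.dvd_card he
      rw [Nat.card_of_subsingleton (1 : G), Nat.dvd_one] at h2
      rw [h2, Nat.dvd_one] at hpe
      exact hp.one_lt.ne' hpe
    obtain ⟨M, hM⟩ := exists_minN G
    haveI := hM.nrm
    have hle : ∀ {x : ℕ}, x ∈ Cfsg.charDegrees (G ⧸ M) → x ∈ Cfsg.charDegrees G := fun hx =>
      H681.DegBasic.charDegrees_comp (QuotientGroup.mk' M) (QuotientGroup.mk'_surjective M) hx
    by_cases hR : ∀ i, Rho (a i) (G ⧸ M)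
    · haveI : Group.IsSolvable (G ⧸ M) := inferInstance
      refine ih (Nat.card (G ⧸ M)) ?_ (G ⧸ M) rfl inferInstance a hinj ?_ ?_
      · rw [← hk, ← Subgroup.card_mul_index M]
        have h2 : 1 < Nat.card M := by
          rw [Finite.one_lt_card_iff_nontrivial, Subgroup.nontrivial_iff_ne_bot]
          exact hM.ne
        have h3 : 0 < M.index := Nat.pos_of_ne_zero Subgroup.index_ne_zero_of_finite
        change M.index < _
        nlinarith
      · intro x
        constructor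
        · rintro ⟨i, rfl⟩
          exact ⟨((hall (a i)).1 ⟨i, rfl⟩).1, hR i⟩
        · rintro ⟨hx, e, he, hxe⟩
          exact (hall x).2 ⟨hx, e, hle he, hxe⟩
      · intro i e he h2 h3
        exact hna i e (hle he) h2 h3
    · push Not at hR
      obtain ⟨i, hi⟩ := hR
      have hpr : ∀ j, (a j).Prime ∧ Rho (a j) G := fun j => (hall (a j)).1 ⟨j, rfl⟩
      have hcyc : ∀ j : Fin 6, j + 5 + 1 = j := by decide
      have hex : Hex G (a i) (a (i + 1)) (a (i + 2)) (a (i + 3)) (a (i + 4)) (a (i + 5)) :=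
        { pp := (hpr _).1
          pq := (hpr _).1
          ps := (hpr _).1
          pw := (hpr _).1
          pu := (hpr _).1
          pr := (hpr _).1
          rp := (hpr _).2
          rq := (hpr _).2
          rs := (hpr _).2
          rw := (hpr _).2
          ru := (hpr _).2
          rr := (hpr _).2
          all := by
            intro x hx hxR
            obtain ⟨j, rfl⟩ := (hall x).2 ⟨hx, hxR⟩
            have : ∀ i j : Fin 6, j = i ∨ j = i + 1 ∨ j = i + 2 ∨ j = i + 3 ∨ j = i + 4 ∨ j = i + 5 := by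
              decide
            rcases this i j with rfl | rfl | rfl | rfl | rfl | rfl <;> simp
          apq := hna i
          aqs := by
            have := hna (i + 1)
            rwa [add_assoc, show (1 + 1 : Fin 6) = 2 from rfl] at this
          asw := by
            have := hna (i + 2)
            rwa [add_assoc, show (2 + 1 : Fin 6) = 3 from rfl] at this
          awu := by
            have := hna (i + 3)
            rwa [add_assoc, show (3 + 1 : Fin 6) = 4 from rfl] at this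
          aur := by
            have := hna (i + 4)
            rwa [add_assoc, show (4 + 1 : Fin 6) = 5 from rfl] at this
          arp := by
            have := hna (i + 5)
            rwa [hcyc] at this
          nd := by
            have h2 : ∀ i : Fin 6, [i, i + 1, i + 2, i + 3, i + 4, i + 5].Nodup := by decide
            exact (h2 i).map hinj }
      exact step hSL hN h1 hpre ha hb hN1 G hG M hM hex hi

end Cfsg.Agent.H734.Prism
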